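import Cfsg.Agent.C11.M5
import Cfsg.Agent.L5.G1
import Cfsg.Agent.L5.T

set_option autoImplicit false
open Matrix
open scoped commutatorElement

namespace Cfsg.Agent.C11

open Cfsg.Geo Cfsg.Agent.Asch

namespace Q3

theorem noinv {K : Type*} [Field K] [Fintype K] {p n : ℕ} (hp : p.Prime) [CharP K p]
    (hc : Fintype.card K = p ^ n) (hn : Odd n) (σ : K ≃+* K) (h2 : ∀ a, σ (σ a) = a) :
    σ = RingEquiv.refl K := by
  have := Fact.mk hp
  let _ : Algebra (ZMod p) K := ZMod.algebra K p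
  let τ : K ≃ₐ[ZMod p] K := AlgEquiv.ofRingEquiv (f := σ) fun x =>
    RingHom.congr_fun (Subsingleton.elim (σ.toRingHom.comp (algebraMap (ZMod p) K))
      (algebraMap (ZMod p) K)) x
  have h1 : Module.finrank (ZMod p) K = n := by
    have := Module.card_eq_pow_finrank (K := ZMod p) (V := K)
    rw [ZMod.card, hc] at this
    exact (Nat.pow_right_injective hp.two_le this).symm
  have h3 : τ ^ n = 1 := by
    rw [← h1, ← IsGalois.card_aut_eq_finrank, pow_card_eq_one']
  have h4 : τ ^ 2 = 1 := AlgEquiv.ext fun a => h2 a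
  obtain ⟨m, rfl⟩ := hn
  rw [pow_succ, pow_mul, h4, one_pow, one_mul] at h3
  exact RingEquiv.ext fun a => AlgEquiv.congr_fun h3 a

theorem nosub {K : Type*} [Field K] [Fintype K] (hp : (Fintype.card K).Prime) (K₀ : Subfield K) :
    K₀ = ⊤ := by
  have : Fact (Nat.card K).Prime := ⟨by rwa [Nat.card_eq_fintype_card]⟩
  rcases K₀.toAddSubgroup.eq_bot_or_eq_top_of_prime_card with h | h
  · have : (1 : K) ∈ K₀.toAddSubgroup := K₀.one_mem
    rw [h] at this
    exact absurd (AddSubgroup.mem_bot.1 this) one_ne_zero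
  · exact eq_top_iff.2 fun x _ => (show x ∈ K₀.toAddSubgroup from h ▸ trivial)

theorem full {K : Type*} [Field K] [Fintype K] {p n : ℕ} (hp : p.Prime) [CharP K p]
    (hc : Fintype.card K = p ^ n) (hn : Odd n) {H P : Subgroup (GL (Fin 5) K)} (hP : QS H P)
    (hs : ∀ F₀ : Subfield K, F₀ ≠ ⊤ → ¬ RealisableOver F₀ (matrixSet P)) {a : GL (Fin 5) K}
    (ha : a ∈ P) (h1 : a ≠ 1) (hr : (a.1 - 1).rank ≤ 1) (s : GL (Fin 5) K) (h : s.1.det = 1) :
    s ∈ P := by
  rcases L5.T.tv_cases (by simp) (isResidualCore_of hP.le hP.norm hP.perf hP.min hP.abs hs) ha h1 hr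
    with e | ⟨σ, f, hf, -⟩
  · rw [e]
    exact (L5.G.mem_sl s).2 h
  · exact absurd (noinv hp hc hn σ hf.involutive) hf.ne_refl

variable {F : Type*} [Field F]

/-- the embedding -/
def ph (K : Subfield F) (B : GL (Fin 5) F) : GL (Fin 5) K →* GL (Fin 5) F :=
  (MulAut.conj B).toMonoidHom.comp (GeneralLinearGroup.map K.subtype)

variable {K : Subfield F} {B : GL (Fin 5) F}

theorem ph_val (y : GL (Fin 5) K) : (ph K B y).1 = cj B (y.1.map K.subtype) := rfl

theorem ph_inj : Function.Injective (ph K B) := fun _ _ e => Units.ext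
  (map_injective K.subtype.injective ((cj B).injective (congrArg Units.val e :)))

theorem ph_ex {g : GL (Fin 5) F} (h : g ∈ subfieldSubgroup K B) :
    ∃ (c : F) (y : GL (Fin 5) K), g.1 = c • (ph K B y).1 := by
  obtain ⟨c, y, -, e⟩ := (mem_subfieldSubgroup_iff _ _ _).1 h
  refine ⟨c, y, ?_⟩
  rw [ph_val, ← map_smul, ← e, ← cj_mul, mul_inv_cancel]
  simp [cj_apply]

theorem ph_sc {y : GL (Fin 5) K} : ph K B y ∈ scalars (Fin 5) F ↔ y ∈ scalars (Fin 5) K := by
  constructor
  · intro h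
    obtain ⟨c, hc⟩ := (mem_scalars_iff _).1 h
    obtain ⟨d, hd⟩ := scalar_of_comm_all (z := y.1) fun x => map_injective K.subtype.injective
      ((cj B).injective (by
        change cj B ((y.1 * x).map K.subtype) = cj B ((x * y.1).map K.subtype)
        rw [Matrix.map_mul, Matrix.map_mul, map_mul, map_mul, ← ph_val, hc]
        simp))
    exact mem_scalars_of_eq_smul hd
  · intro h
    obtain ⟨c, hc⟩ := (mem_scalars_iff _).1 h
    refine mem_scalars_of_eq_smul (c := K.subtype c) ?_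
    rw [ph_val, hc, ← map_one (cj B), ← map_smul]
    congr 1
    ext i j
    by_cases e : i = j <;> simp [e]

theorem desc {H P : Subgroup (GL (Fin 5) F)} (hP : QS H P) (hle : H ≤ subfieldSubgroup K B) :
    P ≤ (ph K B).range ∧ QS (P.comap (ph K B)) (P.comap (ph K B)) := by
  have h1 : P ≤ (ph K B).range := by
    rw [← hP.perf, Subgroup.commutator_le]
    intro x hx y hy
    obtain ⟨c, x', ex⟩ := ph_ex (hle (hP.le hx))
    obtain ⟨d, y', ey⟩ := ph_ex (hle (hP.le hy))
    refine ⟨⁅x', y'⁆, ?_⟩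
    have cx : ∀ z : GL (Fin 5) F, x * z * x⁻¹ = ph K B x' * z * (ph K B x')⁻¹ := fun z => by
      rw [mul_inv_eq_iff_eq_mul, mul_assoc, mul_assoc, ← inv_mul_eq_iff_eq_mul, ← mul_assoc]
      have : ∀ w : GL (Fin 5) F, ((ph K B x')⁻¹ * x) * w = w * ((ph K B x')⁻¹ * x) := fun w =>
        Units.ext (by simp only [Units.val_mul, ex, mul_smul_comm, Units.inv_mul]; simp)
      exact this z
    have cy : ∀ z : GL (Fin 5) F, y * z * y⁻¹ = ph K B y' * z * (ph K B y')⁻¹ := fun z => by
      rw [mul_inv_eq_iff_eq_mul, mul_assoc, mul_assoc, ← inv_mul_eq_iff_eq_mul, ← mul_assoc]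
      have : ∀ w : GL (Fin 5) F, ((ph K B y')⁻¹ * y) * w = w * ((ph K B y')⁻¹ * y) := fun w =>
        Units.ext (by simp only [Units.val_mul, ey, mul_smul_comm, Units.inv_mul]; simp)
      exact this z
    rw [map_commutatorElement, commutatorElement_def, commutatorElement_def, cx y]
    have := cy (ph K B x')⁻¹
    calc _ = ph K B x' * (ph K B y' * (ph K B x')⁻¹ * (ph K B y')⁻¹) := by group
      _ = _ := by rw [← this]; group
  have h2 : (P.comap (ph K B)).map (ph K B) = P := Subgroup.map_comap_eq_self h1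
  refine ⟨h1, le_rfl, GNorms.self _, ?_, ⟨le_rfl, GNorms.self _, fun h => hP.min.ns ?_, ?_⟩, ?_⟩
  · apply Subgroup.map_injective (ph_inj (K := K) (B := B))
    rw [Subgroup.map_commutator, h2, hP.perf]
  · intro x hx
    obtain ⟨y, rfl⟩ := h1 hx
    exact ph_sc.2 (h hx)
  · intro M hM hn
    rcases hP.min.min (M.map (ph K B)) (Subgroup.map_le_iff_le_comap.2 hM) (by
      rintro x hx _ ⟨m, hm, rfl⟩
      obtain ⟨y, rfl⟩ := h1 hx
      exact ⟨_, hn y hx m hm, by simp⟩) with h | h
    · exact Or.inl fun m hm => ph_sc.1 (h ⟨m, hm, rfl⟩)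
    · exact Or.inr (Subgroup.map_injective (ph_inj (K := K) (B := B)) (h.trans h2.symm))
  · by_contra hc
    obtain ⟨f, f0, hf⟩ := Submodule.exists_le_ker_of_lt_top
      (Subalgebra.toSubmodule (spanAlg K (P.comap (ph K B)))) (lt_top_iff_ne_top.2 fun e =>
        hc fun x => (show x ∈ Subalgebra.toSubmodule (spanAlg K (P.comap (ph K B))) from e ▸ trivial))
    have fe : ∀ x, f x = ∑ i, ∑ j, f (single i j 1) * x i j := fun x => by
      conv_lhs => rw [matrix_eq_sum_single x]
      simp only [map_sum]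
      refine Finset.sum_congr rfl fun i _ => Finset.sum_congr rfl fun j _ => ?_
      rw [mul_comm, ← smul_eq_mul, ← map_smul, smul_single, smul_eq_mul, mul_one]
    have key : ∀ X : Matrix (Fin 5) (Fin 5) F,
        ∑ i, ∑ j, (f (single i j 1) : F) * cj B⁻¹ X i j = 0 := fun X => by
      refine spanAlg_induction (k := F) (N := P)
        (p := fun X => ∑ i, ∑ j, (f (single i j 1) : F) * cj B⁻¹ X i j = 0) (fun x hx => ?_)
        (by simp) (fun x y hx hy => ?_) (fun c x hx => ?_) (hP.abs X)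
      · obtain ⟨y, rfl⟩ := h1 hx
        have h3 : f y.1 = 0 := hf (coe_mem_spanAlg (k := K) (N := P.comap (ph K B)) hx)
        rw [fe] at h3
        have h4 := congrArg K.subtype h3
        rw [ph_val, ← cj_mul, inv_mul_cancel]
        simpa [cj_apply] using h4
      · simp only [map_add, Matrix.add_apply, mul_add, Finset.sum_add_distrib, hx, hy, add_zero]
      · simp only [map_smul, Matrix.smul_apply, smul_eq_mul, mul_left_comm _ c, ← Finset.mul_sum, hx,
          mul_zero]
    refine f0 (LinearMap.ext fun x => ?_)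
    rw [fe]
    refine Finset.sum_eq_zero fun i _ => Finset.sum_eq_zero fun j _ => ?_
    have := key (cj B (single i j 1))
    rw [← cj_mul, inv_mul_cancel] at this
    have h5 : (f (single i j 1) : F) = 0 := by
      simpa [cj_apply, single, ite_and] using this
    rw [show f (single i j 1) = 0 from Subtype.ext h5, zero_mul]

end Q3

open Q3

theorem q3 {F : Type*} [Field F] [Fintype F] {p : ℕ} {ζ : F} {H P : Subgroup (GL (Fin 5) F)}
    {δ ω μ : GL (Fin 5) F} (hF : FH F p) (h : H5 ζ H δ ω μ) (hP : QS H P) :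
    (∀ a ∈ P, (a.1 - 1).rank ≤ 1 → a = 1) ∨
      ∃ (K : Subfield F) (B : GL (Fin 5) F) (g : GL (Fin 5) K) (c : F),
        ω.1 = c • (B * GeneralLinearGroup.map K.subtype g * B⁻¹).1 ∧
        ∀ s : GL (Fin 5) K, s.1.det = 1 → B * GeneralLinearGroup.map K.subtype s * B⁻¹ ∈ H := by
  classical
  obtain ⟨hp, hch, hq⟩ := hF
  obtain ⟨n, hn, hn5, hc⟩ : ∃ n, Odd n ∧ (n = 1 ∨ n = 5) ∧ Fintype.card F = p ^ n := by
    rcases hq with ⟨e, -⟩ | ⟨e, -⟩
    · exact ⟨1, odd_one, Or.inl rfl, by rw [e, pow_one]⟩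
    · exact ⟨5, by decide, Or.inr rfl, e⟩
  refine or_iff_not_imp_left.2 fun hT => ?_
  push Not at hT
  obtain ⟨a, ha, hr, h1⟩ := hT
  by_cases hs : ∀ F₀ : Subfield F, F₀ ≠ ⊤ → ¬ RealisableOver F₀ (matrixSet P)
  · refine ⟨⊤, 1, GeneralLinearGroup.map (Subfield.topEquiv (K := F)).symm.toRingHom ω, 1, ?_,
      fun s hs' => hP.le (full hp hc hn hP hs ha h1 hr _ ?_)⟩
    · rw [one_smul, one_mul, inv_one, mul_one]
      rfl
    · rw [one_mul, inv_one, mul_one]
      change ((⊤ : Subfield F).subtype.mapMatrix s.1).det = 1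
      rw [← RingHom.map_det, hs', map_one]
  · push Not at hs
    obtain ⟨F₀, h0, hR⟩ := hs
    obtain ⟨K, r, B, hr', hK, hle⟩ := hP.abs.linC5 hP.norm h0 hR
    have := Fintype.ofFinite K
    have hKp : Fintype.card K = p := by
      rw [Nat.card_eq_fintype_card, hc] at hK
      have h2 : 1 < Fintype.card K := Fintype.one_lt_card
      obtain ⟨m, hm, e⟩ := (Nat.dvd_prime_pow hp).1 (hK ▸ dvd_pow_self (Fintype.card K) hr'.ne_zero)
      rw [e, ← pow_mul] at hK
      have h3 := Nat.pow_right_injective hp.two_le hK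
      have h4 := hr'.two_le
      have h5 : m = 1 := by
        rcases hn5 with rfl | rfl
        · rcases Nat.eq_zero_or_pos m with rfl | h6
          · omega
          · nlinarith
        · interval_cases m <;> omega
      rw [e, h5, pow_one]
    obtain ⟨h2, h3⟩ := desc hP hle
    obtain ⟨c, g, e⟩ := ph_ex (hle h.hω)
    obtain ⟨a', rfl⟩ := h2 ha
    refine ⟨K, B, g, c, e, fun s hs' => hP.le ?_⟩
    refine full (n := 1) hp (by rw [hKp, pow_one]) odd_one h3
      (fun K₀ h0 => absurd (nosub (hKp ▸ hp) K₀) h0) (a := a') ha (fun e => h1 (by rw [e, map_one]))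
      (L5.G.rank_down F K.subtype ?_) s hs'
    have e1 : (a'.1 - 1).map K.subtype = cj B⁻¹ ((ph K B a').1 - 1) := by
      rw [map_sub, map_one, ph_val, ← cj_mul, inv_mul_cancel,
        Matrix.map_sub _ (map_sub _), Matrix.map_one _ (map_zero _) (map_one _)]
      simp [cj_apply]
    rw [e1, cj_apply]
    exact ((rank_mul_le_left _ _).trans (rank_mul_le_right _ _)).trans hr

end Cfsg.Agent.C11
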