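import Cfsg.Agent.C7.MitA
import Cfsg.Agent.X5.U
import Cfsg.Agent.L5.M5

set_option autoImplicit false
open Matrix Subgroup Equiv
open scoped MatrixGroups

namespace Cfsg.Agent.C11

/-- one class of involutions -/
def OneCl (Γ : Type*) [Group Γ] : Prop :=
  ∀ x y : Γ, orderOf x = 2 → orderOf y = 2 → IsConj x y

theorem OneCl.of {Γ Δ : Type*} [Group Γ] [Group Δ] (h : OneCl Δ) (e : Γ ≃* Δ) : OneCl Γ :=
  fun x y hx hy => by
    simpa using e.symm.toMonoidHom.map_isConj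
      (h (e x) (e y) (by rw [e.orderOf_eq, hx]) (by rw [e.orderOf_eq, hy]))

namespace Q6

open L5.M C7.MitA

instance f11 : Fact (Nat.Prime 11) := ⟨by norm_num⟩

theorem one11 : OneCl PSL(2, ZMod 11) := by
  have key : ∀ x : PSL(2, ZMod 11), orderOf x = 2 →
      IsConj (QuotientGroup.mk (s := center SL(2, ZMod 11))
        ⟨!![0, -1; 1, 0], by simp [det_fin_two]⟩) x := by
    intro x hx
    induction x using QuotientGroup.induction_on with
    | H A =>
    obtain ⟨⟨e, he⟩, hn⟩ := sq_of hx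
    have hd := A.2
    obtain ⟨a, b, c, d, hA⟩ : ∃ a b c d, A.1 = !![a, b; c, d] := ⟨_, _, _, _, eta_fin_two _⟩
    rw [hA] at he hn hd
    have e00 := congrFun (congrFun he 0) 0
    have e01 := congrFun (congrFun he 0) 1
    have e10 := congrFun (congrFun he 1) 0
    have e11 := congrFun (congrFun he 1) 1
    simp at e00 e01 e10 e11
    rw [det_fin_two_of] at hd
    have ht : a + d = 0 := by
      by_contra ht
      have hb : b = 0 := (mul_eq_zero.1 (by linear_combination e01)).resolve_left ht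
      have hc : c = 0 := (mul_eq_zero.1 (by linear_combination e10)).resolve_left ht
      have hy : a - d = 0 := (mul_eq_zero.1 (by linear_combination e00 - e11)).resolve_left ht
      refine hn a ?_
      rw [hb, hc, ← sub_eq_zero.1 hy]
      ext i j; fin_cases i <;> fin_cases j <;> simp
    obtain rfl : d = -a := by linear_combination ht
    have h3 : (c ^ 5) ^ 2 = 1 :=
      (by decide +kernel : ∀ a b c : ZMod 11, a * -a - b * c = 1 → (c ^ 5) ^ 2 = 1) a b c hd
    refine conj_of (c := c ^ 5) (P := ⟨!![c ^ 2, c ^ 7 * a; 0, c ^ 8], by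
      rw [det_fin_two_of]; linear_combination h3⟩) ?_
    rw [hA]
    ext i j
    fin_cases i <;> fin_cases j <;> simp
    · linear_combination (-a * c ^ 2) * h3
    · linear_combination (-c ^ 7) * hd
    · linear_combination (-c ^ 3) * h3
    · ring
  exact fun x y hx hy => (key x hx).symm.trans (key y hy)

theorem card11 : Nat.card PSL(2, ZMod 11) = 660 := by
  have := O5.card_psl (E := ZMod 11) (by simp) (by simp; decide)
  rw [ZMod.card] at this
  omega

theorem mem_of (w : Spor.M11) {π : Perm (Fin 11)} (h : ∀ i, res w i = π i) : π ∈ AutS :=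
  Equiv.ext h ▸ res_mem w

theorem m1 : t1 ∈ AutS :=
  mem_of (s0 * s1 * s0 * s1 * s0 * s2 * s0 * s2 * s1 * s0 * s1 * s2 * s0) (by decide +kernel)
theorem m2 : t2 ∈ AutS :=
  mem_of (s1 * s0 * s2 * s1 * s0 * s1 * s2 * s0 * s2 * s1 * s0 * s1 * s0) (by decide +kernel)
theorem m3 : rh ∈ AutS :=
  mem_of (s2 * s1 * s2 * s0 * s2 * s1 * s0 * s2 * s1 * s2 * s1 * s2) (by decide +kernel)
theorem m4 : qq ∈ AutS := res_x ▸ mul_mem (res_mem _) (res_mem _)

theorem tr3 (y : Perm (Fin 11)) : ∃ z ∈ AutS, z 0 = y 0 ∧ z 1 = y 1 ∧ z 2 = y 2 :=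
  three m1 m2 m3 (res_mem s0) (res_mem (s0 * s1)) (by decide +kernel) (by decide +kernel) y

/-- the stabiliser of three points -/
def Q (i : Fin 4 × Bool) : Perm (Fin 11) := if i.2 then rh ^ i.1.1 * qq else rh ^ i.1.1

theorem Q_mem (i : Fin 4 × Bool) : Q i ∈ AutS := by
  unfold Q
  split_ifs
  exacts [mul_mem (pow_mem m3 _) m4, pow_mem m3 _]

theorem Q_ex : ∀ d : Fin 11, d ≠ 0 → d ≠ 1 → d ≠ 2 → ∃ i, Q i 0 = 0 ∧ Q i 1 = 1 ∧ Q i 2 = 2 ∧
    Q i 3 = d := by decide +kernel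

theorem st3 {y : Perm (Fin 11)} (h : y ∈ AutS) (h0 : y 0 = 0) (h1 : y 1 = 1) (h2 : y 2 = 2) :
    ∃ i, y = Q i := by
  obtain ⟨i, a, b, c, d⟩ := Q_ex (y 3) (fun e => absurd (y.injective (e.trans h0.symm)) (by decide))
    (fun e => absurd (y.injective (e.trans h1.symm)) (by decide))
    (fun e => absurd (y.injective (e.trans h2.symm)) (by decide))
  have := base (mul_mem (inv_mem (Q_mem i)) h)
    (by rw [Perm.mul_apply, h0, Perm.inv_eq_iff_eq, a])
    (by rw [Perm.mul_apply, h1, Perm.inv_eq_iff_eq, b])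
    (by rw [Perm.mul_apply, h2, Perm.inv_eq_iff_eq, c])
    (by rw [Perm.mul_apply, Perm.inv_eq_iff_eq, d])
  exact ⟨i, (inv_mul_eq_one.1 this).symm⟩

theorem ex3 {a b c : Fin 11} (h1 : a ≠ b) (h2 : a ≠ c) (h3 : b ≠ c) :
    ∃ z ∈ AutS, z 0 = a ∧ z 1 = b ∧ z 2 = c := by
  have hi : Function.Injective (![a, b, c] : Fin 3 → Fin 11) := by
    intro i j; fin_cases i <;> fin_cases j <;> simp_all [eq_comm]
  have hj : Function.Injective (![0, 1, 2] : Fin 3 → Fin 11) := by decide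
  obtain ⟨y, hy⟩ := Equiv.Perm.exists_extending_pair (hf := hj) (hg := hi)
  obtain ⟨z, hz, e⟩ := tr3 y
  exact ⟨z, hz, e.1.trans (hy 0), e.2.1.trans (hy 1), e.2.2.trans (hy 2)⟩

theorem cardS : Nat.card AutS = 7920 := by
  let f : AutS → (Fin 4 ↪ Fin 11) := fun π =>
    ⟨fun i => π.1 (Fin.castLE (by omega) i), π.1.injective.comp (Fin.castLE_injective (by omega))⟩
  have hf : Function.Bijective f := by
    refine ⟨fun π σ e => ?_, fun t => ?_⟩
    · have k : ∀ i : Fin 4, π.1 (Fin.castLE (by omega) i) = σ.1 (Fin.castLE (by omega) i) :=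
        fun i => congrArg (fun s : Fin 4 ↪ Fin 11 => s i) e
      have := base (mul_mem (inv_mem σ.2) π.2)
        (by rw [Perm.mul_apply, Perm.inv_eq_iff_eq]; exact k 0)
        (by rw [Perm.mul_apply, Perm.inv_eq_iff_eq]; exact k 1)
        (by rw [Perm.mul_apply, Perm.inv_eq_iff_eq]; exact k 2)
        (by rw [Perm.mul_apply, Perm.inv_eq_iff_eq]; exact k 3)
      exact Subtype.ext (inv_mul_eq_one.1 this).symm
    · have ne : ∀ i j, i ≠ j → t i ≠ t j := fun i j h e => h (t.injective e)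
      obtain ⟨z, hz, a, b, c⟩ := ex3 (ne 0 1 (by decide)) (ne 0 2 (by decide)) (ne 1 2 (by decide))
      obtain ⟨i, a', b', c', d'⟩ := Q_ex (z⁻¹ (t 3))
        (by rw [Ne, Perm.inv_eq_iff_eq, a]; exact ne 3 0 (by decide))
        (by rw [Ne, Perm.inv_eq_iff_eq, b]; exact ne 3 1 (by decide))
        (by rw [Ne, Perm.inv_eq_iff_eq, c]; exact ne 3 2 (by decide))
      refine ⟨⟨z * Q i, mul_mem hz (Q_mem i)⟩, Function.Embedding.ext fun j => ?_⟩
      fin_cases j
      · change z (Q i 0) = t 0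
        rw [a', a]
      · change z (Q i 1) = t 1
        rw [b', b]
      · change z (Q i 2) = t 2
        rw [c', c]
      · change z (Q i 3) = t 3
        rw [d']; simp
  rw [Nat.card_congr (Equiv.ofBijective f hf), Nat.card_eq_fintype_card, Fintype.card_embedding_eq]
  simp [Nat.descFactorial]

/-- an element interchanging two points -/
def sg : Perm (Fin 11) := ⟨![1, 0, 2, 3, 4, 8, 9, 10, 5, 6, 7], ![1, 0, 2, 3, 4, 8, 9, 10, 5, 6, 7], by decide, by decide⟩

theorem sg_mem : sg ∈ AutS :=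
  (by decide +kernel : ∀ a b c d e, Bl a b c d e → Bl (sg a) (sg b) (sg c) (sg d) (sg e))

theorem oneS : OneCl AutS := by
  have key : ∀ x : AutS, orderOf x = 2 → IsConj x ⟨rh ^ 2, pow_mem m3 2⟩ := by
    rintro ⟨y, hy⟩ h2
    have y2 : y * y = 1 := by
      have := pow_orderOf_eq_one (⟨y, hy⟩ : AutS)
      rw [h2, sq] at this
      exact congrArg Subtype.val this
    have yy : ∀ a, y (y a) = a := fun a => congrArg (fun s : Perm (Fin 11) => s a) y2
    have y1 : y ≠ 1 := fun e => by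
      rw [show (⟨y, hy⟩ : AutS) = 1 from Subtype.ext e, orderOf_one] at h2
      omega
    obtain ⟨a, ha⟩ : ∃ a, y a ≠ a := by
      by_contra k
      push Not at k
      exact y1 (Equiv.ext k)
    obtain ⟨c, hc⟩ := Equiv.Perm.exists_fixed_point_of_prime (p := 2) (n := 1) (by decide)
      (σ := y) (by rw [pow_one, sq, y2])
    obtain ⟨z, hz, z0, z1, z2⟩ := ex3 (a := a) (b := y a) (c := c) ha.symm
      (fun e => ha (by rw [e, hc])) (fun e => ha (by
        have : a = c := by rw [← yy a, e, hc]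
        rw [this, hc]))
    obtain ⟨i, hi⟩ := st3 (mul_mem (inv_mem sg_mem) (mul_mem (mul_mem (inv_mem hz) hy) hz))
      (by simp only [Perm.mul_apply, Perm.inv_eq_iff_eq, z0]; exact z1.symm)
      (by simp only [Perm.mul_apply, Perm.inv_eq_iff_eq, z1, yy]; exact z0.symm)
      (by simp only [Perm.mul_apply, Perm.inv_eq_iff_eq, z2, hc]; exact z2.symm)
    rw [inv_mul_eq_iff_eq_mul] at hi
    obtain ⟨u, v, w, n1, n2, n3, f1, f2, f3⟩ := (by decide +kernel : ∀ i, sg * Q i * (sg * Q i) = 1 →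
      ∃ u v w, u ≠ v ∧ u ≠ w ∧ v ≠ w ∧ (sg * Q i) u = u ∧ (sg * Q i) v = v ∧ (sg * Q i) w = w) i (by
        rw [← hi]
        calc z⁻¹ * y * z * (z⁻¹ * y * z) = z⁻¹ * (y * y) * z := by group
          _ = 1 := by rw [y2]; group)
    rw [← hi] at f1 f2 f3
    obtain ⟨s, hs, s0, s1, s2⟩ := ex3 n1 n2 n3
    obtain ⟨j, hj⟩ := st3 (mul_mem (mul_mem (inv_mem hs) (mul_mem (mul_mem (inv_mem hz) hy) hz)) hs)
      (by rw [Perm.mul_apply, Perm.mul_apply, s0, f1, Perm.inv_eq_iff_eq, s0])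
      (by rw [Perm.mul_apply, Perm.mul_apply, s1, f2, Perm.inv_eq_iff_eq, s1])
      (by rw [Perm.mul_apply, Perm.mul_apply, s2, f3, Perm.inv_eq_iff_eq, s2])
    have e := (by decide +kernel : ∀ j, Q j * Q j = 1 → Q j ≠ 1 → Q j = rh ^ 2) j (by
        rw [← hj]
        calc s⁻¹ * (z⁻¹ * y * z) * s * (s⁻¹ * (z⁻¹ * y * z) * s) =
            s⁻¹ * z⁻¹ * (y * y) * z * s := by group
          _ = 1 := by rw [y2]; group) (fun k => y1 (by
        rw [← hj] at k
        calc y = z * s * (s⁻¹ * (z⁻¹ * y * z) * s) * s⁻¹ * z⁻¹ := by group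
          _ = 1 := by rw [k]; group))
    refine isConj_iff.2 ⟨⟨s⁻¹ * z⁻¹, mul_mem (inv_mem hs) (inv_mem hz)⟩, Subtype.ext ?_⟩
    change s⁻¹ * z⁻¹ * y * (s⁻¹ * z⁻¹)⁻¹ = rh ^ 2
    rw [← e, ← hj]
    group
  exact fun x y hx hy => (key x hx).trans (key y hy).symm

end Q6

open Q6

variable {Γ : Type*} [Group Γ]

theorem q6a (h : L5.IsL211 Γ) : Nat.card Γ = 660 ∧ OneCl Γ :=
  let ⟨e⟩ := h
  ⟨(Nat.card_congr e.toEquiv).trans card11, one11.of e⟩

theorem q6b (h : Spor.IsoM11 Γ) : Nat.card Γ = 7920 ∧ OneCl Γ :=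
  let ⟨e⟩ := h
  let e' := e.trans ((MonoidHom.ofInjective L5.M.res_inj).trans
    (MulEquiv.subgroupCongr L5.M.res_range))
  ⟨(Nat.card_congr e'.toEquiv).trans cardS, oneS.of e'⟩

theorem q6c (h : L5.IsU2 4 Γ) : 3 ∣ Nat.card Γ ∧ 5 ∣ Nat.card Γ ∧ ¬ 11 ∣ Nat.card Γ := by
  obtain ⟨K, _, _, hK, ⟨e⟩⟩ := h
  rw [Nat.card_congr e.toEquiv]
  obtain ⟨h3, h5, -, -⟩ := X5.sm_u42 hK
  refine ⟨h3, h5, fun h => ?_⟩
  have hd : Nat.card (PSU 4 K 2) ∣ Nat.card (SU 4 K 2) := Subgroup.card_quotient_dvd_card _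
  have := h.trans (hd.trans (Subgroup.card_subgroup_dvd_card _))
  rw [H8.card_SL_eq 4 (by norm_num), hK] at this
  exact absurd this (by decide +kernel)

end Cfsg.Agent.C11
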